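import Cfsg.Agent.H588.PQR.Ratio
import Cfsg.Agent.H562.PQR.Iface

/-!
# Triples from the numeric criterion (helper588, PQR-C1 of S3988)

`trip_of_mem` : conjugates of `x`, `y` of `a`-, `b`-power order (`{2, p} ⊆ {a, b}` or via `B`) with product of order in `B`.
`trip_ratio` : `u` of prime order `l`, `2 ∣ |N(⟨u⟩)|`, `2 ∤ |C(u)|`; `y` of order `p`; `B` a finite set of primes `≠ 2, p`
dividing `|S|` exactly once.
`trip_cent` : `x`, `y` of orders `a`, `b`, and a set `Z` of `c`-elements.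
-/

set_option autoImplicit false

namespace Cfsg.Agent.H588.Ratio

open Cfsg Cfsg.Agent.H562.PQR
open Cfsg.Agent.H80.Fpf (MultDvd)

universe u

variable {S : Type u} [Group S]

theorem trip_of_mem {m a b p : ℕ} (hm : MultDvd S m) (hm' : ∀ s : ℕ, s.Prime → s ∣ m → s = 2 ∨ s = a ∨ s = b)
    (ha : a.Prime) (hb : b.Prime) (hab : a ≠ b) {x y : S} (hx : PE a x) (hy : PE b y) {Z : Set S}
    (hZ : ∀ z ∈ Z, ∃ c : ℕ, c.Prime ∧ c ≠ a ∧ c ≠ b ∧ PE c z ∧ (p = a ∨ p = b ∨ p = c) ∧ (2 = a ∨ 2 = b ∨ 2 = c))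
    (h : ∃ g h : S, g * x * g⁻¹ * (h * y * h⁻¹) ∈ Z) : Trip p S := by
  obtain ⟨g, k, hgk⟩ := h
  obtain ⟨c, hc, hca, hcb, hz, h1, h2⟩ := hZ _ hgk
  refine ⟨a, b, c, h1, h2, TripABC.of_mult hm (fun s hs hsm => ?_) ha hb hc hab hca.symm hcb.symm
    (hx.conj g) (hy.conj k) hz.inv (mul_inv_cancel _)⟩
  rcases hm' s hs hsm with h3 | h3 | h3
  · exact Or.inl h3
  · exact Or.inr (Or.inl h3)
  · exact Or.inr (Or.inr (Or.inl h3))

theorem PE_of_mem_primes {B : Finset ℕ} (hB : ∀ b ∈ B, b.Prime) {z : S} (hz : z ∈ {x : S | orderOf x ∈ B}) :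
    PE (orderOf z) z := PE.of_orderOf (hB _ hz) rfl

variable [Finite S]

/-- the proportion of `B`-elements -/
theorem card_div {B : Finset ℕ} {n : ℕ → ℕ} (hB : ∀ b ∈ B, b.Prime ∧ ¬ b ^ 2 ∣ Nat.card S ∧
      ∃ z : S, orderOf z = b ∧ Nat.card (Subgroup.normalizer (Subgroup.zpowers z : Set S)) = n b) (hne : B.Nonempty) :
    {x : S | orderOf x ∈ B}.Nonempty ∧
      (Nat.card S : ℝ) / Nat.card {x : S | orderOf x ∈ B} = 1 / ∑ b ∈ B, ((b : ℝ) - 1) / n b := by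
  constructor
  · obtain ⟨b, hb⟩ := hne
    obtain ⟨-, -, z, hz, -⟩ := hB b hb
    exact ⟨z, by show orderOf z ∈ B; rwa [hz]⟩
  · rw [card_primes B]
    have h1 : ∀ b ∈ B, (Nat.card {x : S // orderOf x = b} : ℝ) = (Nat.card S : ℝ) * (((b : ℝ) - 1) / n b) := by
      intro b hb
      obtain ⟨h2, h3, z, hz, hn⟩ := hB b hb
      exact card_prime_div h2 h3 hz hn
    rw [Finset.sum_congr rfl h1, ← Finset.mul_sum]
    have h0 : (Nat.card S : ℝ) ≠ 0 := by exact_mod_cast Nat.card_pos.ne'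
    rw [div_mul_eq_div_div, div_self h0]

/-- **the criterion**: `x` an involution (a `2`-element `t` normalising `⟨u⟩`, `|u| = l`), `y` of order `p`, the product of
order in `B` -/
theorem trip_ratio {m p l : ℕ} (hm : MultDvd S m) (hm' : ∀ s : ℕ, s.Prime → s ∣ m → s = 2 ∨ s = p)
    (hp : p.Prime) (hp2 : p ≠ 2) (hl : l.Prime) {u : S} (hu : orderOf u = l)
    (h2N : 2 ∣ Nat.card (Subgroup.normalizer (Subgroup.zpowers u : Set S)))
    (h2C : ¬ 2 ∣ Nat.card (Subgroup.centralizer ({u} : Set S)))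
    {y : S} (hy : orderOf y = p) {cy : ℕ} (hcy : Nat.card (Subgroup.centralizer ({y} : Set S)) = cy)
    {B : Finset ℕ} {n : ℕ → ℕ} (hBn : B.Nonempty) (hB2 : ∀ b ∈ B, b ≠ 2 ∧ b ≠ p)
    (hB : ∀ b ∈ B, b.Prime ∧ ¬ b ^ 2 ∣ Nat.card S ∧
      ∃ z : S, orderOf z = b ∧ Nat.card (Subgroup.normalizer (Subgroup.zpowers z : Set S)) = n b)
    {D A : ℝ} (hD0 : 0 < D) (hA0 : 0 ≤ A) (hD : ∀ χ : S → ℂ, IsIrrCharacter S χ → χ ≠ 1 → D ≤ ‖χ 1‖)
    (hA : (Nat.card (Subgroup.centralizer ({u} : Set S)) : ℝ) ≤ A ^ 2 + 1)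
    (hnum : ((cy : ℝ) - 1) * (1 / (∑ b ∈ B, ((b : ℝ) - 1) / n b) - 1) * (1 / l + (l - 1) * A / (l * D)) ^ 2 < 1) :
    Trip p S := by
  obtain ⟨t, ht, htu, htu'⟩ := exists_normalizing Nat.prime_two h2N h2C
  obtain ⟨hZne, hZ⟩ := card_div hB hBn
  have h1 := ratio_cent (y := y) hl hu htu htu' hZne hD0 hA0 hD hA (by rw [hZ, hcy]; exact hnum)
  refine trip_of_mem (a := 2) (b := p) hm (fun s hs hsm => ?_) Nat.prime_two hp hp2.symm
    (PE.of_orderOf Nat.prime_two ht) (PE.of_orderOf hp hy) (fun z hz => ?_) h1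
  · rcases hm' s hs hsm with h | h
    · exact Or.inl h
    · exact Or.inr (Or.inr h)
  · have h3 : orderOf z ∈ B := hz
    exact ⟨orderOf z, (hB _ h3).1, (hB2 _ h3).1, (hB2 _ h3).2, PE_of_mem_primes (fun b hb => (hB b hb).1) hz,
      Or.inr (Or.inl rfl), Or.inl rfl⟩

/-- **the direct criterion**: `x`, `y` of orders `a`, `b`, `Z` a nonempty set of `c`-elements, `{2, p} ⊆ {a, b, c}`,
`|C(x)| (|C(y)| - 1) (|S| / |Z| - 1) < D²` -/
theorem trip_cent {m p a b c : ℕ} (hm : MultDvd S m)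
    (hm' : ∀ s : ℕ, s.Prime → s ∣ m → s = 2 ∨ s = a ∨ s = b) (ha : a.Prime) (hb : b.Prime) (hc : c.Prime) (hab : a ≠ b)
    (hac : a ≠ c) (hbc : b ≠ c) (h2 : 2 = a ∨ 2 = b ∨ 2 = c) (hp : p = a ∨ p = b ∨ p = c) {x y : S}
    (hx : PE a x) (hy : PE b y) {Z : Set S} (hne : Z.Nonempty) (hZ : ∀ z ∈ Z, PE c z) {D : ℝ} (hD0 : 0 < D)
    (hD : ∀ χ : S → ℂ, IsIrrCharacter S χ → χ ≠ 1 → D ≤ ‖χ 1‖)
    (hnum : (Nat.card (Subgroup.centralizer ({x} : Set S)) : ℝ) *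
      ((Nat.card (Subgroup.centralizer ({y} : Set S)) : ℝ) - 1) * ((Nat.card S : ℝ) / Nat.card Z - 1) < D ^ 2) :
    Trip p S :=
  trip_of_mem hm hm' ha hb hab hx hy (fun z hz => ⟨c, hc, hac.symm, hbc.symm, hZ z hz, hp, h2⟩)
    (exists_mul_mem_cent hD0 hD hne hnum)

omit [Finite S] in
/-- a lower bound of the degrees, in the form of the criterion -/
theorem le_norm_one {D : ℕ} (h : ∀ χ : S → ℂ, IsIrrCharacter S χ → χ ≠ 1 → ∀ n : ℕ, χ 1 = n → D ≤ n) :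
    ∀ χ : S → ℂ, IsIrrCharacter S χ → χ ≠ 1 → (D : ℝ) ≤ ‖χ 1‖ := by
  intro χ hχ h1
  obtain ⟨n, -, hn⟩ := Characters.Core.isIrr_apply_one hχ
  rw [hn, Complex.norm_natCast]
  exact_mod_cast h χ hχ h1 n hn

end Cfsg.Agent.H588.Ratio
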