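import Cfsg.Agent.H562.PQR.Iface
import Cfsg.Agent.Th.Main1700
import Cfsg.Agent.S2057

/-!
# Row `Th` of S3988 (helper588)

Triples of types `(7, 2, 3)`, `(3, 2, 5)`, `(7, 2, 13)`, `(19, 2, 31)` in `Th`, by words checked in the 248-dimensional
representation over the field of 3 elements.
-/

set_option autoImplicit false
set_option maxRecDepth 100000

namespace Cfsg.Agent.H588.PQRTh

open Cfsg Cfsg.Agent.H562.PQR
open Cfsg.Agent.H80.Fpf (MultDvd)
open Cfsg.Agent.Th.Gen248 Cfsg.Agent.Th.Hom248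

/-! ### Generalities -/

universe u

theorem PE_of_pow {S : Type u} [Group S] {a i : ℕ} (ha : a.Prime) {x : S} (hx : x ^ a ^ i = 1) (h1 : x ≠ 1) :
    PE a x := by
  refine ⟨h1, ?_⟩
  obtain ⟨k, -, hk⟩ := (Nat.dvd_prime_pow ha).1 (orderOf_dvd_of_pow_eq_one hx)
  exact ⟨k, hk⟩

theorem eq_one_of_coprime_pows {S : Type u} [Group S] {m n : ℕ} (h : Nat.Coprime m n) {x : S} (hm : x ^ m = 1)
    (hn : x ^ n = 1) : x = 1 := by
  have h1 := Nat.dvd_gcd (orderOf_dvd_of_pow_eq_one hm) (orderOf_dvd_of_pow_eq_one hn)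
  rw [h] at h1
  exact orderOf_eq_one_iff.1 (Nat.dvd_one.1 h1)

/-- a triple from powers: `x ≠ 1`, `x^(a^i) = y^(b^j) = (x y)^(c^k) = 1` -/
theorem tripABC_of_pow {S : Type u} [Group S] {m a b c i j k : ℕ} (hm : MultDvd S m)
    (hm' : ∀ s : ℕ, s.Prime → s ∣ m → s = 2 ∨ s = a ∨ s = b ∨ s = c) (ha : a.Prime) (hb : b.Prime) (hc : c.Prime)
    (hab : a ≠ b) (hac : a ≠ c) (hbc : b ≠ c) {x y : S} (hx1 : x ≠ 1) (hx : x ^ a ^ i = 1) (hy : y ^ b ^ j = 1)
    (hz : (x * y) ^ c ^ k = 1) : TripABC a b c S := by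
  have hy1 : y ≠ 1 := by
    rintro rfl
    rw [mul_one] at hz
    exact hx1 (eq_one_of_coprime_pows (Nat.coprime_pow_primes i k ha hc hac) hx hz)
  have hxy : x * y ≠ 1 := by
    intro h
    apply hy1
    have h2 : y = x⁻¹ := eq_inv_of_mul_eq_one_right h
    refine eq_one_of_coprime_pows (Nat.coprime_pow_primes i j ha hb hab) ?_ hy
    rw [h2, inv_pow, hx, inv_one]
  exact TripABC.of_mult hm hm' ha hb hc hab hac hbc (PE_of_pow ha hx hx1) (PE_of_pow hb hy hy1)
    (PE_of_pow hc hz hxy).inv (mul_inv_cancel _)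

/-! ### Words -/

/-- the value of a word in the presented group -/
noncomputable def ev (w : Wd) : Spor.Th :=
  (PresentedGroup.mk (Cfsg.Spor.coxRelators Cfsg.Spor.Th.edges ∪ {r | r ∈ Cfsg.Spor.Th.extra}) (toFree w) : Spor.Th)

theorem ev_eq_one {w : Wd} (h : Nat.beq (evN false w) (evN false .one) = true) : ev w = 1 := by
  apply Cfsg.Agent.Th.Main1700.rho_injective
  rw [ev, rho_mk, map_one]
  exact evG_eq h

theorem ev_ne_one {w : Wd} (h : Nat.beq (evN false w) (evN false .one) = false) : ev w ≠ 1 := by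
  intro h0
  have h1 := congrArg Cfsg.Agent.Th.Hom248.rho h0
  rw [ev, rho_mk, map_one] at h1
  exact evG_ne h h1

/-- `s`, of order 7 -/
def x1 : Wd := .g .s
/-- `u⁻¹`, of order 4 -/
def y1 : Wd := .g .U
/-- `s⁻¹ u`, of order 3 -/
def x2 : Wd := .mul (.g .S) (.g .u)
/-- `d u d`, of order 4 -/
def y2 : Wd := .mul (.mul (.g .d) (.g .u)) (.g .d)
/-- `d e s⁻¹`, of order 7 -/
def x3 : Wd := .mul (.mul (.g .d) (.g .e)) (.g .S)
/-- `a b c`, of order 4 -/
def y3 : Wd := .mul (.mul (.g .a) (.g .b)) (.g .c)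
/-- `b d u s e`, of order 19 -/
def x4 : Wd := .mul (.mul (.mul (.mul (.g .b) (.g .d)) (.g .u)) (.g .s)) (.g .e)
/-- `c`, of order 2 -/
def y4 : Wd := .g .c

/-- powers -/
def p7 (w : Wd) : Wd := .mul (.pow (.pow w 2) 3) w
def p13 (w : Wd) : Wd := .mul (.pow (.pow (.pow w 2) 2) 3) w
def p19' (w : Wd) : Wd := .mul (.pow (.pow (.pow w 2) 3) 3) w
def p31 (w : Wd) : Wd := .mul (.pow (.pow (.pow w 2) 3) 5) w

theorem hx1 : Nat.beq (evN false (p7 x1)) (evN false .one) = true := by decide +kernel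
theorem hy1 : Nat.beq (evN false (.pow y1 4)) (evN false .one) = true := by decide +kernel
theorem hz1 : Nat.beq (evN false (.pow (.mul x1 y1) 3)) (evN false .one) = true := by decide +kernel
theorem hn1 : Nat.beq (evN false x1) (evN false .one) = false := by decide +kernel

theorem hx2 : Nat.beq (evN false (.pow x2 3)) (evN false .one) = true := by decide +kernel
theorem hy2 : Nat.beq (evN false (.pow y2 4)) (evN false .one) = true := by decide +kernel
theorem hz2 : Nat.beq (evN false (.pow (.mul x2 y2) 5)) (evN false .one) = true := by decide +kernel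
theorem hn2 : Nat.beq (evN false x2) (evN false .one) = false := by decide +kernel

theorem hx3 : Nat.beq (evN false (p7 x3)) (evN false .one) = true := by decide +kernel
theorem hy3 : Nat.beq (evN false (.pow y3 4)) (evN false .one) = true := by decide +kernel
theorem hz3 : Nat.beq (evN false (p13 (.mul x3 y3))) (evN false .one) = true := by decide +kernel
theorem hn3 : Nat.beq (evN false x3) (evN false .one) = false := by decide +kernel

theorem hx4 : Nat.beq (evN false (p19' x4)) (evN false .one) = true := by decide +kernel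
theorem hy4 : Nat.beq (evN false (.pow y4 2)) (evN false .one) = true := by decide +kernel
theorem hz4 : Nat.beq (evN false (p31 (.mul x4 y4))) (evN false .one) = true := by decide +kernel
theorem hn4 : Nat.beq (evN false x4) (evN false .one) = false := by decide +kernel

theorem ev_mul (v w : Wd) : ev (.mul v w) = ev v * ev w := rfl

theorem ev_pow (w : Wd) (n : ℕ) : ev (.pow w n) = ev w ^ n := rfl

theorem mult : MultDvd Spor.Th 1 := H80.Fpf.multDvd_of_cyclic one_ne_zero S2057.result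

theorem no_prime {P : ℕ → Prop} : ∀ s : ℕ, s.Prime → s ∣ 1 → P s := fun _ hs h =>
  absurd (Nat.dvd_one.1 h) hs.one_lt.ne'

theorem trip_seven_three : TripABC 7 2 3 Spor.Th := by
  refine tripABC_of_pow (i := 1) (j := 2) (k := 1) (x := ev x1) (y := ev y1) mult no_prime (by norm_num) (by norm_num)
    (by norm_num) (by norm_num) (by norm_num) (by norm_num) (ev_ne_one hn1) ?_ ?_ ?_
  · have h := ev_eq_one hx1
    rw [p7, ev_mul, ev_pow, ev_pow, ← pow_mul, ← pow_succ] at h
    exact h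
  · exact ev_eq_one hy1
  · exact ev_eq_one hz1

theorem trip_three_five : TripABC 3 2 5 Spor.Th := by
  refine tripABC_of_pow (i := 1) (j := 2) (k := 1) (x := ev x2) (y := ev y2) mult no_prime (by norm_num) (by norm_num)
    (by norm_num) (by norm_num) (by norm_num) (by norm_num) (ev_ne_one hn2) ?_ ?_ ?_
  · exact ev_eq_one hx2
  · exact ev_eq_one hy2
  · exact ev_eq_one hz2

theorem trip_seven_thirteen : TripABC 7 2 13 Spor.Th := by
  refine tripABC_of_pow (i := 1) (j := 2) (k := 1) (x := ev x3) (y := ev y3) mult no_prime (by norm_num) (by norm_num)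
    (by norm_num) (by norm_num) (by norm_num) (by norm_num) (ev_ne_one hn3) ?_ ?_ ?_
  · have h := ev_eq_one hx3
    rw [p7, ev_mul, ev_pow, ev_pow, ← pow_mul, ← pow_succ] at h
    exact h
  · exact ev_eq_one hy3
  · have h := ev_eq_one hz3
    rw [p13, ev_mul (.pow _ _), ev_pow, ev_pow, ev_pow, ← pow_mul, ← pow_mul, ← pow_succ] at h
    exact h

theorem trip_nineteen_thirtyone : TripABC 19 2 31 Spor.Th := by
  refine tripABC_of_pow (i := 1) (j := 1) (k := 1) (x := ev x4) (y := ev y4) mult no_prime (by norm_num) (by norm_num)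
    (by norm_num) (by norm_num) (by norm_num) (by norm_num) (ev_ne_one hn4) ?_ ?_ ?_
  · have h := ev_eq_one hx4
    rw [p19', ev_mul, ev_pow, ev_pow, ev_pow, ← pow_mul, ← pow_mul, ← pow_succ] at h
    exact h
  · exact ev_eq_one hy4
  · have h := ev_eq_one hz4
    rw [p31, ev_mul (.pow _ _), ev_pow, ev_pow, ev_pow, ← pow_mul, ← pow_mul, ← pow_succ] at h
    exact h

theorem row_Th : RowOdd Cfsg.Spor.Th := by
  intro p hp hp2 hd
  rw [Cfsg.Agent.Th.Main1700.final.2.1] at hd
  have h1 : p ∣ 2 ^ 15 * (3 ^ 10 * (5 ^ 3 * (7 ^ 2 * (13 * (19 * 31))))) := by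
    rwa [show 2 ^ 15 * (3 ^ 10 * (5 ^ 3 * (7 ^ 2 * (13 * (19 * 31))))) = 90745943887872000 by norm_num]
  have hq : ∀ {q n : ℕ}, q.Prime → p ∣ q ^ n → p = q := fun h2 h3 =>
    (Nat.prime_dvd_prime_iff_eq hp h2).1 (hp.dvd_of_dvd_pow h3)
  right
  rcases hp.dvd_mul.1 h1 with h | h
  · exact absurd (hq Nat.prime_two h) hp2
  rcases hp.dvd_mul.1 h with h | h
  · exact ⟨7, 2, 3, by rw [hq Nat.prime_three h]; norm_num, by norm_num, trip_seven_three⟩
  rcases hp.dvd_mul.1 h with h | h
  · exact ⟨3, 2, 5, by rw [hq Nat.prime_five h]; norm_num, by norm_num, trip_three_five⟩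
  rcases hp.dvd_mul.1 h with h | h
  · exact ⟨7, 2, 3, by rw [hq (by norm_num) h]; norm_num, by norm_num, trip_seven_three⟩
  rcases hp.dvd_mul.1 h with h | h
  · exact ⟨7, 2, 13, by rw [(Nat.prime_dvd_prime_iff_eq hp (by norm_num)).1 h]; norm_num, by norm_num,
      trip_seven_thirteen⟩
  rcases hp.dvd_mul.1 h with h | h
  · exact ⟨19, 2, 31, by rw [(Nat.prime_dvd_prime_iff_eq hp (by norm_num)).1 h]; norm_num, by norm_num,
      trip_nineteen_thirtyone⟩
  · exact ⟨19, 2, 31, by rw [(Nat.prime_dvd_prime_iff_eq hp (by norm_num)).1 h]; norm_num, by norm_num,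
      trip_nineteen_thirtyone⟩

end Cfsg.Agent.H588.PQRTh
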